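import Cfsg.Agent.SC64.B
import Cfsg.Agent.Comp.Class
import Cfsg.Agent.Comp.Rigid

/-! Frames for the Sylow 2-subgroup `2^4 : 2^2` of `A₈`. -/

set_option autoImplicit false
set_option linter.unusedSectionVars false
set_option maxRecDepth 100000
set_option synthInstance.maxSize 4096

namespace Cfsg.Agent.SC16

open Cfsg.Agent.BG Subgroup

variable {G : Type*} [Group G] [Finite G] {S A : Subgroup G} {e : ℕ → G}

def a1 (q : ℕ) : ℕ := q % 2 * 2 + q / 2 % 2 + q / 4 % 2 * 8 + q / 8 * 4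
def a2 (q : ℕ) : ℕ := q % 4 * 4 + q / 4
def act (δ q : ℕ) : ℕ := (if δ % 2 = 1 then a1 else id) ((if δ / 2 = 1 then a2 else id) q)

def K (e : ℕ → G) (t : G) (δ : ℕ) : Prop := δ < 4 ∧ ∀ q < 16, t * e q * t⁻¹ = e (act δ q)

structure Fr (S A : Subgroup G) (e : ℕ → G) : Prop where
  mem : ∀ x, x ∈ A ↔ ∃ q < 16, x = e q
  mul : ∀ q < 16, ∀ r < 16, e q * e r = e (q ^^^ r)
  inj : ∀ q < 16, ∀ r < 16, e q = e r → q = r
  le : A ≤ S
  ex : ∀ t ∈ S, ∃ δ, K e t δ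
  sc : ∀ t ∈ S, K e t 0 → t ∈ A
  split : ∀ δ < 4, ∃ t ∈ S, K e t δ ∧ t * t = 1

theorem act_lt : ∀ δ < 4, ∀ q < 16, act δ q < 16 := by decide +kernel
theorem act_dm : ∀ δ < 4, ∀ ε < 4, δ ^^^ ε < 4 ∧ ∀ q < 16, act δ (act ε q) = act (δ ^^^ ε) q := by decide +kernel
theorem xor_lt {q r : ℕ} (hq : q < 16) (hr : r < 16) : q ^^^ r < 16 := Nat.xor_lt_two_pow (n := 4) hq hr

theorem K.mul {t s : G} {δ ε : ℕ} (h : K e t δ) (h' : K e s ε) : K e (t * s) (δ ^^^ ε) :=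
  ⟨(act_dm δ h.1 ε h'.1).1, fun q hq => by
    rw [← (act_dm δ h.1 ε h'.1).2 q hq, ← h.2 _ (act_lt ε h'.1 q hq), ← h'.2 q hq]; group⟩

namespace Fr
variable (h : Fr S A e)
include h

theorem one : e 0 = 1 := by simpa using h.mul 0 (by decide) 0 (by decide)
theorem em {q : ℕ} (hq : q < 16) : e q ∈ A := (h.mem _).2 ⟨q, hq, rfl⟩
theorem sq {x : G} (hx : x ∈ A) : x * x = 1 := by
  obtain ⟨q, hq, rfl⟩ := (h.mem x).1 hx
  rw [h.mul q hq q hq, Nat.xor_self, h.one]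
theorem iv {x : G} (hx : x ∈ A) : x⁻¹ = x := inv_eq_of_mul_eq_one_right (h.sq hx)
theorem comm {x y : G} (hx : x ∈ A) (hy : y ∈ A) : x * y = y * x := by
  obtain ⟨q, hq, rfl⟩ := (h.mem x).1 hx
  obtain ⟨r, hr, rfl⟩ := (h.mem y).1 hy
  rw [h.mul q hq r hr, h.mul r hr q hq, Nat.xor_comm]

theorem zero' {t : G} {δ : ℕ} (h1 : K e t δ) (c : t ∈ C[A]) : δ = 0 :=
  (show ∀ δ < 4, act δ 1 = 1 → δ = 0 by decide +kernel) δ h1.1 (h.inj _ (act_lt _ h1.1 _ (by decide)) _ (by decide)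
    ((h1.2 1 (by decide)).symm.trans (conj_eq_of_cent c (h.em (by decide)))))

theorem ac : A ≤ C[A] := le_cent_iff.2 fun _ ha _ hb => h.comm ha hb

theorem zero {t : G} {δ : ℕ} (ht : t ∈ S) (h1 : K e t δ) : t ∈ A ↔ δ = 0 :=
  ⟨fun c => h.zero' h1 (h.ac c), fun c => h.sc t ht (c ▸ h1)⟩

theorem cj_eq {t : G} {δ q : ℕ} (h1 : K e t δ) (hq : q < 16) : e q * t * (e q)⁻¹ = e (q ^^^ act δ q) * t := by
  rw [← h.mul _ hq _ (act_lt _ h1.1 _ hq), ← h1.2 q hq, h.iv (h.em hq)]; group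

theorem cent {t : G} {δ q : ℕ} (h1 : K e t δ) (hq : q < 16) : e q ∈ C1[t] ↔ act δ q = q := by
  rw [mem_cent1, eq_comm, ← mul_inv_eq_iff_eq_mul, h1.2 q hq]
  exact ⟨h.inj _ (act_lt _ h1.1 _ hq) _ hq, congrArg e⟩

theorem cnt (p : G → Prop) [DecidablePred p] :
    Nat.card {a : A // p a} = ((Finset.range 16).filter fun q => p (e q)).card := by
  rw [← Nat.card_eq_finsetCard]
  refine (Nat.card_eq_of_bijective (fun q => ⟨⟨e q.1, h.em (Finset.mem_range.1 (Finset.mem_filter.1 q.2).1)⟩,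
    (Finset.mem_filter.1 q.2).2⟩) ⟨fun q r c => Subtype.ext (h.inj _ (Finset.mem_range.1 (Finset.mem_filter.1 q.2).1) _
      (Finset.mem_range.1 (Finset.mem_filter.1 r.2).1) (congrArg (fun x => x.1.1) c)), fun ⟨⟨x, hx⟩, c⟩ => ?_⟩).symm
  obtain ⟨q, hq, rfl⟩ := (h.mem x).1 hx
  exact ⟨⟨q, Finset.mem_filter.2 ⟨Finset.mem_range.2 hq, c⟩⟩, rfl⟩

theorem hi (p : ℕ → Prop) [DecidablePred p] {H : Subgroup G} (hH : H ≤ A) (hp : ∀ q < 16, e q ∈ H → p q) :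
    #H ≤ ((Finset.range 16).filter p).card := by
  rw [← Nat.card_eq_finsetCard]
  have : ∀ x : H, ∃ q : ↥((Finset.range 16).filter p), x.1 = e q := fun x => by
    obtain ⟨q, hq, c⟩ := (h.mem _).1 (hH x.2)
    exact ⟨⟨q, Finset.mem_filter.2 ⟨Finset.mem_range.2 hq, hp q hq (c ▸ x.2)⟩⟩, c⟩
  choose f hf using this
  exact Nat.card_le_card_of_injective f fun x y c => Subtype.ext (by rw [hf, hf, c])

theorem uniq {B : Subgroup G} (hB : B ≤ S) (hc : IsMulCommutative B) (h16 : #B = 16) : B = A := by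
  refine eq_of_card_le (by_contra fun c => ?_) ((h.hi (fun _ => True) le_rfl fun _ _ _ => trivial).trans (by simp [h16]))
  obtain ⟨t, ht, nt⟩ := SetLike.not_le_iff_exists.1 c
  obtain ⟨δ, kt⟩ := h.ex t (hB ht)
  have d0 : δ ≠ 0 := fun c => nt ((h.zero (hB ht) kt).2 c)
  have f : ∀ u ∈ B, ∀ ε, K e u ε → ∀ q < 16, e q ∈ B ⊓ A → act ε q = q := fun u hu ε k q hq c =>
    (h.cent k hq).1 (mem_cent1.2 (hc.comm c.1 hu))
  by_cases ca : ∀ u ∈ B, u ∈ A ∨ u * t ∈ A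
  · have c1 := SC64.cover (A := A) [1, t] (fun u hu => by simpa using ca u hu) (by simp [ht])
    have c2 := (h.hi _ inf_le_right (f t ht δ kt)).trans ((show ∀ δ < 4, δ ≠ 0 →
      ((Finset.range 16).filter fun q => act δ q = q).card ≤ 4 by decide +kernel) δ kt.1 d0)
    simp only [List.length_cons, List.length_nil] at c1
    omega
  push Not at ca
  obtain ⟨s, hs, ns, ns'⟩ := ca
  obtain ⟨ε, ks⟩ := h.ex s (hB hs)
  have e0 : ε ≠ 0 := fun c => ns ((h.zero (hB hs) ks).2 c)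
  have e1 : ε ^^^ δ ≠ 0 := fun c => ns' ((h.zero (hB (mul_mem hs ht)) (ks.mul kt)).2 c)
  have c1 := SC64.cover (A := A) (F := B) [1, t, s, t * s] (fun u hu => by
    obtain ⟨η, k⟩ := h.ex u (hB hu)
    simp only [List.mem_cons, List.not_mem_nil, or_false, exists_eq_or_imp, exists_eq_left, mul_one]
    rw [h.zero (hB hu) k, h.zero (hB (mul_mem hu ht)) (k.mul kt), h.zero (hB (mul_mem hu hs)) (k.mul ks),
      h.zero (hB (mul_mem hu (mul_mem ht hs))) (k.mul (kt.mul ks))]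
    exact (show ∀ δ < 4, ∀ ε < 4, δ ≠ 0 → ε ≠ 0 → ε ^^^ δ ≠ 0 → ∀ η < 4, η = 0 ∨ η ^^^ δ = 0 ∨ η ^^^ ε = 0 ∨ η ^^^ (δ ^^^ ε) = 0
      by decide +kernel) δ kt.1 ε ks.1 d0 e0 e1 η k.1) (by simp [ht, hs, mul_mem])
  have c2 := (h.hi (fun q => act δ q = q ∧ act ε q = q) inf_le_right fun q hq c => ⟨f t ht δ kt q hq c, f s hs ε ks q hq c⟩).trans
    ((show ∀ δ < 4, ∀ ε < 4, δ ≠ 0 → ε ≠ 0 → ε ^^^ δ ≠ 0 →
      ((Finset.range 16).filter fun q => act δ q = q ∧ act ε q = q).card ≤ 2 by decide +kernel) δ kt.1 ε ks.1 d0 e0 e1)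
  simp only [List.length_cons, List.length_nil] at c1
  omega

theorem map {G' : Type*} [Group G'] [Finite G'] (f : S →* G') (hf : Function.Injective f) :
    ∃ e', Fr f.range ((A.subgroupOf S).map f) e' := by
  classical
  let e' : ℕ → G' := fun q => if c : e q ∈ S then f ⟨e q, c⟩ else 1
  have he : ∀ q (hq : q < 16), e' q = f ⟨e q, h.le (h.em hq)⟩ := fun q hq => dif_pos _
  have k : ∀ (t : S) δ, K e' (f t) δ ↔ K e t δ := fun t δ => and_congr_right fun hδ => forall₂_congr fun q hq => by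
    rw [he q hq, he _ (act_lt δ hδ q hq), ← map_inv, ← map_mul, ← map_mul, hf.eq_iff, Subtype.ext_iff]; rfl
  refine ⟨e', fun x => ⟨?_, ?_⟩, fun q hq r hr => ?_, fun q hq r hr c => ?_, map_le_range _ _, ?_, ?_, fun δ hδ => ?_⟩
  · rintro ⟨y, hy, rfl⟩
    obtain ⟨q, hq, c⟩ := (h.mem _).1 hy
    exact ⟨q, hq, by rw [he q hq]; exact congrArg f (Subtype.ext c)⟩
  · rintro ⟨q, hq, rfl⟩
    exact ⟨_, h.em hq, (he q hq).symm⟩
  · rw [he q hq, he r hr, he _ (xor_lt hq hr), ← map_mul]; exact congrArg f (Subtype.ext (h.mul q hq r hr))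
  · rw [he q hq, he r hr] at c; exact h.inj q hq r hr (congrArg Subtype.val (hf c))
  · rintro _ ⟨t, rfl⟩
    exact (h.ex t t.2).imp fun δ => (k t δ).2
  · rintro _ ⟨t, rfl⟩ c
    exact ⟨t, h.sc t t.2 ((k t 0).1 c), rfl⟩
  · obtain ⟨t, ht, c, t2⟩ := h.split δ hδ
    exact ⟨f ⟨t, ht⟩, ⟨_, rfl⟩, (k _ δ).2 c, by rw [← map_mul, ← map_one f]; exact congrArg f (Subtype.ext t2)⟩

end Fr

open Equiv

abbrev A8 := alternatingGroup (Fin 8)
def dt (a b c d : Fin 8) (h1 : a ≠ b := by decide) (h2 : c ≠ d := by decide) : A8 :=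
  ⟨swap a b * swap c d, by simp [Perm.mem_alternatingGroup, h1, h2]⟩
def sel (b : ℕ) (x : A8) : A8 := if b % 2 = 1 then x else 1
def e8 (q : ℕ) : A8 := sel q (dt 0 2 1 3) * sel (q / 2) (dt 0 3 1 2) * sel (q / 4) (dt 4 6 5 7) * sel (q / 8) (dt 4 7 5 6)
def d8 (δ : ℕ) : A8 := sel δ (dt 0 1 4 5) * sel (δ / 2) (dt 0 4 1 5 * dt 2 6 3 7)

theorem e8_mul : ∀ q < 16, ∀ r < 16, e8 q * e8 r = e8 (q ^^^ r) := by decide +kernel
theorem d8_mul : ∀ q < 4, ∀ r < 4, d8 q * d8 r = d8 (q ^^^ r) := by decide +kernel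
theorem d8_act : ∀ δ < 4, ∀ q < 16, d8 δ * e8 q = e8 (act δ q) * d8 δ := by decide +kernel
theorem ed_inj : ∀ q < 16, ∀ δ < 4, e8 q * d8 δ = 1 → q = 0 ∧ δ = 0 := by decide +kernel

theorem exists_fr (P : Sylow 2 A8) (S : Subgroup G) (φ : S ≃* (P : Subgroup A8)) : ∃ A e, Fr S A e := by
  have := Fact.mk Nat.prime_two
  have e0 : e8 0 = 1 := by decide +kernel
  have d0 : d8 0 = 1 := by decide +kernel
  have m : ∀ q < 16, ∀ δ < 4, ∀ r < 16, ∀ ε < 4, e8 q * d8 δ * (e8 r * d8 ε) = e8 (q ^^^ act δ r) * d8 (δ ^^^ ε) :=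
    fun q hq δ hδ r hr ε hε => by
      rw [← e8_mul q hq _ (act_lt δ hδ r hr), ← d8_mul δ hδ ε hε, mul_assoc, mul_assoc, ← mul_assoc (d8 δ), d8_act δ hδ r hr,
        mul_assoc]
  let T : Subgroup A8 :=
    { carrier := {x | ∃ q < 16, ∃ δ < 4, x = e8 q * d8 δ}
      one_mem' := ⟨0, by decide, 0, by decide, by rw [e0, d0, one_mul]⟩
      mul_mem' := by
        rintro _ _ ⟨q, hq, δ, hδ, rfl⟩ ⟨r, hr, ε, hε, rfl⟩
        exact ⟨_, xor_lt hq (act_lt δ hδ r hr), _, (act_dm δ hδ ε hε).1, m q hq δ hδ r hr ε hε⟩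
      inv_mem' := by
        rintro _ ⟨q, hq, δ, hδ, rfl⟩
        exact ⟨act δ q, act_lt δ hδ q hq, δ, hδ, inv_eq_of_mul_eq_one_right (by
          rw [m q hq δ hδ _ (act_lt δ hδ q hq) δ hδ, (act_dm δ hδ δ hδ).2 q hq, Nat.xor_self,
            (show ∀ q < 16, q ^^^ act 0 q = 0 by decide) q hq, e0, d0, one_mul])⟩ }
  let E : Subgroup A8 :=
    { carrier := {x | ∃ q < 16, x = e8 q}
      one_mem' := ⟨0, by decide, e0.symm⟩
      mul_mem' := by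
        rintro _ _ ⟨q, hq, rfl⟩ ⟨r, hr, rfl⟩
        exact ⟨_, xor_lt hq hr, e8_mul q hq r hr⟩
      inv_mem' := by
        rintro _ ⟨q, hq, rfl⟩
        exact ⟨q, hq, inv_eq_of_mul_eq_one_right (by rw [e8_mul q hq q hq, Nat.xor_self, e0])⟩ }
  have inj : ∀ q < 16, ∀ δ < 4, ∀ r < 16, ∀ ε < 4, e8 q * d8 δ = e8 r * d8 ε → q = r ∧ δ = ε := fun q hq δ hδ r hr ε hε c => by
    have := ed_inj _ (xor_lt hq hr) _ (act_dm δ hδ ε hε).1 (by
      rw [Nat.xor_comm q, ← e8_mul r hr q hq, ← d8_mul δ hδ ε hε, mul_assoc, ← mul_assoc (e8 q), c, mul_assoc,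
        d8_mul ε hε ε hε, ← mul_assoc, e8_mul r hr r hr, Nat.xor_self, Nat.xor_self, e0, d0, one_mul])
    exact ⟨Nat.eq_of_xor_eq_zero this.1, Nat.eq_of_xor_eq_zero this.2⟩
  have kq : ∀ q < 16, ∀ δ < 4, K e8 (e8 q * d8 δ) δ := fun q hq δ hδ => ⟨hδ, fun r hr => by
    have l := act_lt δ hδ r hr
    rw [mul_inv_eq_iff_eq_mul, mul_assoc, d8_act δ hδ r hr, ← mul_assoc, ← mul_assoc, e8_mul _ hq _ l, e8_mul _ l _ hq,
      Nat.xor_comm]⟩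
  have i2 : ∀ q < 16, ∀ r < 16, e8 q = e8 r → q = r := fun q hq r hr c =>
    (inj q hq 0 (by decide) r hr 0 (by decide) (by rw [c])).1
  have h : Fr T E e8 := by
    refine ⟨fun _ => Iff.rfl, e8_mul, i2, ?_, ?_, ?_, fun δ hδ => ⟨_, ⟨0, by decide, δ, hδ, rfl⟩, kq 0 (by decide) δ hδ, by
      rw [e0, one_mul, d8_mul δ hδ δ hδ, Nat.xor_self, d0]⟩⟩
    · rintro _ ⟨q, hq, rfl⟩
      exact ⟨q, hq, 0, by decide, by rw [d0, mul_one]⟩
    · rintro _ ⟨q, hq, δ, hδ, rfl⟩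
      exact ⟨δ, kq q hq δ hδ⟩
    · rintro _ ⟨q, hq, δ, hδ, rfl⟩ k
      obtain rfl : δ = 0 := (show ∀ δ < 4, act δ 1 = act 0 1 → δ = 0 by decide +kernel) δ hδ (i2 _ (act_lt δ hδ 1 (by decide)) _
        (by decide) (((kq q hq δ hδ).2 1 (by decide)).symm.trans (k.2 1 (by decide))))
      exact ⟨q, hq, by rw [d0, mul_one]⟩
  have hT : #T = 2 ^ 6 := by
    rw [← Nat.card_eq_of_bijective (fun q : Fin 16 × Fin 4 => (⟨_, q.1, q.1.2, q.2, q.2.2, rfl⟩ : T)) ⟨fun q r c => ?_,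
      fun ⟨_, q, hq, δ, hδ, rfl⟩ => ⟨(⟨q, hq⟩, ⟨δ, hδ⟩), rfl⟩⟩]
    · simp
    · have := inj _ q.1.2 _ q.2.2 _ r.1.2 _ r.2.2 (congrArg Subtype.val c)
      exact Prod.ext (Fin.ext this.1) (Fin.ext this.2)
  obtain ⟨g, hg⟩ := Comp.exists_conj_sylow (N := 20160) hT (by rw [nat_card_alternatingGroup]; simp [Nat.factorial])
    (by norm_num) P
  let ψ := (Comp.conjEquiv g hg).trans φ.symm
  obtain ⟨e', h'⟩ := h.map (S.subtype.comp ψ.toMonoidHom) (S.subtype_injective.comp ψ.injective)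
  have : (S.subtype.comp ψ.toMonoidHom).range = S :=
    Subgroup.ext fun x => ⟨fun ⟨y, hy⟩ => hy ▸ Subtype.prop _, fun hx => ⟨ψ.symm ⟨x, hx⟩, by simp⟩⟩
  exact ⟨_, e', this ▸ h'⟩

end Cfsg.Agent.SC16
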